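import Mathlib
import Cfsg.Prelude.Def_KGroupFacts
import Cfsg.Agent.PGroup.Extraspecial

/-!
The automorphism group of an extraspecial 2-group of width at least 3 does not split over the inner automorphisms.
-/

namespace CfsgLib.ExtraAut

open CfsgLib.PGroup

variable {Q : Type*} [Group Q]

/-- Data: `z` is a central involution generating the centre, all commutators and squares lie in it. -/
structure Data (z : Q) : Prop where
  ne_one : z ≠ 1
  sq : z * z = 1
  central : ∀ x, x * z = z * x
  center : ∀ c : Q, (∀ x, x * c = c * x) → c = 1 ∨ c = z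
  bracket : ∀ x y : Q, x * y = y * x ∨ x * y = y * x * z
  square : ∀ x : Q, x * x = 1 ∨ x * x = z

variable {z : Q}

open scoped Classical in
/-- Twist map attached to `a`. -/
noncomputable def twistFun (a : Q) (x : Q) : Q := if x * a = a * x then x else x * a

theorem twistFun_pos {a x : Q} (h : x * a = a * x) : twistFun a x = x := if_pos h

theorem twistFun_neg {a x : Q} (h : ¬ x * a = a * x) : twistFun a x = x * a := if_neg h

theorem twistFun_mul (e : Data z) {a : Q} (ha : a * a = z) (x y : Q) :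
    twistFun a (x * y) = twistFun a x * twistFun a y := by
  by_cases hx : x * a = a * x <;> by_cases hy : y * a = a * y
  · have h : x * y * a = a * (x * y) := by rw [mul_assoc, hy, ← mul_assoc, hx, mul_assoc]
    rw [twistFun_pos h, twistFun_pos hx, twistFun_pos hy]
  · have h : ¬ x * y * a = a * (x * y) := fun h => hy (by
      rw [mul_assoc, ← mul_assoc a, ← hx, mul_assoc x a] at h
      exact mul_left_cancel h)
    rw [twistFun_neg h, twistFun_pos hx, twistFun_neg hy, mul_assoc]
  · have h : ¬ x * y * a = a * (x * y) := fun h => hx (by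
      rw [mul_assoc, hy, ← mul_assoc, ← mul_assoc] at h
      exact mul_right_cancel h)
    rw [twistFun_neg h, twistFun_neg hx, twistFun_pos hy, mul_assoc, hy, mul_assoc]
  · have hx' := (e.bracket x a).resolve_left hx
    have hy' := (e.bracket y a).resolve_left hy
    have hy'' : a * y = y * a * z := by
      rw [hy', mul_assoc, e.sq, mul_one]
    have h : x * y * a = a * (x * y) := by
      rw [mul_assoc, hy', ← mul_assoc, ← mul_assoc x a y, hx']
      simp only [mul_assoc]
      rw [← mul_assoc z y, ← e.central y, mul_assoc y z z, e.sq, mul_one]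
    rw [twistFun_pos h, twistFun_neg hx, twistFun_neg hy]
    calc x * y = x * y * (z * z) := by rw [e.sq, mul_one]
      _ = x * (y * (z * (a * a))) := by rw [ha]; simp [mul_assoc]
      _ = x * (y * (a * z * a)) := by rw [← mul_assoc z, ← e.central a]
      _ = x * a * (y * a) := by
        rw [mul_assoc x a, ← mul_assoc a y, hy'']
        simp [mul_assoc]

/-- The lift of a transvection. -/
noncomputable def twist [Finite Q] (e : Data z) {a : Q} (ha : a * a = z) : MulAut Q :=
  MulEquiv.ofBijective (MonoidHom.mk' (twistFun a) (twistFun_mul e ha)) (by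
    refine Finite.injective_iff_bijective.mp ((injective_iff_map_eq_one _).mpr fun x hx => ?_)
    simp only [MonoidHom.mk'_apply, twistFun] at hx
    split at hx
    · exact hx
    · rename_i h
      exact absurd (by rw [mul_eq_one_iff_eq_inv.mp hx]; simp) h)

theorem twist_apply [Finite Q] (e : Data z) {a : Q} (ha : a * a = z) (x : Q) :
    twist e ha x = twistFun a x := rfl

theorem twist_mul_self [Finite Q] (e : Data z) {a : Q} (ha : a * a = z) :
    twist e ha * twist e ha = MulAut.conj a := by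
  ext x
  rw [MulAut.mul_apply, twist_apply, twist_apply, MulAut.conj_apply]
  by_cases hx : x * a = a * x
  · rw [twistFun_pos hx, twistFun_pos hx, ← hx, mul_inv_cancel_right]
  · have hx' := (e.bracket x a).resolve_left hx
    have hax : a * x = x * a * z := by rw [hx', mul_assoc, e.sq, mul_one]
    have h : ¬ x * a * a = a * (x * a) := fun h => hx (by
      rw [← mul_assoc] at h
      exact mul_right_cancel h)
    rw [twistFun_neg hx, twistFun_neg h]
    rw [mul_assoc x a a, ha, hax, mul_assoc (x * a), ← e.central a⁻¹, ← mul_assoc, mul_inv_cancel_right]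

theorem twist_comm [Finite Q] (e : Data z) {a b : Q} (ha : a * a = z) (hb : b * b = z)
    (hab : a * b = b * a) : twist e ha * twist e hb = twist e hb * twist e ha := by
  ext x
  simp only [MulAut.mul_apply, twist_apply]
  have h1 : x * b * a = a * (x * b) ↔ x * a = a * x := by
    rw [mul_assoc, ← hab, ← mul_assoc, ← mul_assoc, mul_left_inj]
  have h2 : x * a * b = b * (x * a) ↔ x * b = b * x := by
    rw [mul_assoc, hab, ← mul_assoc, ← mul_assoc, mul_left_inj]
  by_cases hx : x * a = a * x <;> by_cases hy : x * b = b * x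
  · rw [twistFun_pos hy, twistFun_pos hx, twistFun_pos hy]
  · rw [twistFun_neg hy, twistFun_pos (h1.mpr hx), twistFun_pos hx, twistFun_neg hy]
  · rw [twistFun_pos hy, twistFun_neg hx, twistFun_pos (h2.mpr hy)]
  · rw [twistFun_neg hy, twistFun_neg (mt h1.mp hx), twistFun_neg hx, twistFun_neg (mt h2.mp hy),
      mul_assoc, mul_assoc, hab]

theorem mul_conj (φ : MulAut Q) (w : Q) : φ * MulAut.conj w = MulAut.conj (φ w) * φ := by
  ext x
  simp [MulAut.mul_apply, MulAut.conj_apply]

theorem center_of_conj_eq {u v : Q} (h : MulAut.conj u = MulAut.conj v) :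
    ∀ x, x * (v⁻¹ * u) = (v⁻¹ * u) * x := by
  intro x
  have := congrArg (fun f : MulAut Q => f x) h
  simp only [MulAut.conj_apply] at this
  calc x * (v⁻¹ * u) = v⁻¹ * (v * x * v⁻¹) * u := by simp [mul_assoc]
    _ = v⁻¹ * (u * x * u⁻¹) * u := by rw [this]
    _ = v⁻¹ * u * x := by simp [mul_assoc]

theorem no_complement [Finite Q] (e : Data z) (L : Subgroup (MulAut Q))
    (hL : (Cfsg.Inn Q).IsComplement' L) {a b₁ b₂ : Q} (ha : a * a = z) (hb₁ : b₁ * b₁ = z)
    (hb₂ : b₂ * b₂ = z) (h1 : a * b₁ = b₁ * a) (h2 : a * b₂ = b₂ * a) (h12 : b₁ * b₂ = b₂ * b₁)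
    (hb₁a : ∀ c, (c = 1 ∨ c = z) → b₁ ≠ a * c) (hb₂a : ∀ c, (c = 1 ∨ c = z) → b₂ ≠ a * c)
    (hb₃ : ∀ c, (c = 1 ∨ c = z) → b₁ * b₂ ≠ c) : False := by
  have hzz : ∀ c, (c = 1 ∨ c = z) → ∀ x, x * c = c * x := by
    rintro c (rfl | rfl) x
    · simp
    · exact e.central x
  have hmulZ : ∀ c d, (c = 1 ∨ c = z) → (d = 1 ∨ d = z) → (c * d = 1 ∨ c * d = z) := by
    rintro c d (rfl | rfl) (rfl | rfl) <;> simp [e.sq]
  have hnotZ : ∀ b : Q, b * b = z → ¬ (b = 1 ∨ b = z) := by
    rintro b hb (rfl | rfl)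
    · exact e.ne_one (by rw [← hb, one_mul])
    · exact e.ne_one (by rw [← hb, e.sq])
  have hdisj : ∀ s ∈ L, s ∈ Cfsg.Inn Q → s = 1 := fun s hs hs' =>
    Subgroup.disjoint_def.mp hL.disjoint hs' hs
  have hlift : ∀ (b : Q) (hb : b * b = z), ∃ w : Q, MulAut.conj w * twist e hb ∈ L := by
    intro b hb
    obtain ⟨⟨⟨c, ⟨v, rfl⟩⟩, ⟨l, hl⟩⟩, hcl⟩ :=
      ((Subgroup.isComplement'_def.mp hL).existsUnique (twist e hb)).exists
    refine ⟨v⁻¹, ?_⟩
    rw [← hcl, map_inv]
    simpa using hl
  obtain ⟨w, hw⟩ := hlift a ha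
  -- the lift is an involution, so `w` does not commute with `a`
  have hwa : ¬ w * a = a * w := by
    intro hcomm
    have h := hdisj _ (L.mul_mem hw hw) ⟨w * twist e ha w * a, by
      rw [mul_assoc (MulAut.conj w), ← mul_assoc (twist e ha), mul_conj, mul_assoc (MulAut.conj _),
        twist_mul_self, map_mul, map_mul, mul_assoc]⟩
    rw [mul_assoc (MulAut.conj w), ← mul_assoc (twist e ha), mul_conj, mul_assoc (MulAut.conj _),
      twist_mul_self, ← map_mul, ← map_mul, ← map_one (MulAut.conj (G := Q))] at h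
    have hc := e.center _ (center_of_conj_eq h)
    rw [inv_one, one_mul, twist_apply, twistFun, if_pos hcomm, ← mul_assoc] at hc
    apply hnotZ a ha
    have hww := e.square w
    have : a = (w * w) * (w * w * a) := by
      rcases hww with h | h <;> rw [h]
      · simp
      · rw [← mul_assoc, e.sq, one_mul]
    rw [this]
    exact hmulZ _ _ hww hc
  -- commuting lifts force `w` to commute with `b`
  have hwb : ∀ b : Q, b * b = z → a * b = b * a → (∀ c, (c = 1 ∨ c = z) → b ≠ a * c) →
      w * b = b * w := by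
    intro b hb hab hba
    by_contra hwb
    obtain ⟨w', hw'⟩ := hlift b hb
    have key : MulAut.conj (w * twist e ha w') = MulAut.conj (w' * twist e hb w) := by
      have e1 : (MulAut.conj w * twist e ha) * (MulAut.conj w' * twist e hb) =
          MulAut.conj (w * twist e ha w') * (twist e ha * twist e hb) := by
        rw [mul_assoc (MulAut.conj w), ← mul_assoc (twist e ha), mul_conj, map_mul]
        simp [mul_assoc]
      have e2 : (MulAut.conj w' * twist e hb) * (MulAut.conj w * twist e ha) =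
          MulAut.conj (w' * twist e hb w) * (twist e ha * twist e hb) := by
        rw [mul_assoc (MulAut.conj w'), ← mul_assoc (twist e hb), mul_conj, map_mul,
          twist_comm e ha hb hab]
        simp [mul_assoc]
      have := hdisj _ (L.mul_mem (L.mul_mem hw hw') (L.inv_mem (L.mul_mem hw' hw)))
        ⟨(w * twist e ha w') * (w' * twist e hb w)⁻¹, by
          rw [e1, e2, map_mul, map_inv]; group⟩
      rw [e1, e2, mul_inv_eq_one] at this
      exact mul_right_cancel this
    have hc := e.center _ (center_of_conj_eq key)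
    rw [twist_apply, twist_apply] at hc
    set c := (w' * twistFun b w)⁻¹ * (w * twistFun a w') with hcdef
    have h3 : w * twistFun a w' = w' * twistFun b w * c := by rw [hcdef, mul_inv_cancel_left]
    have hv : twistFun b w = w * b := if_neg hwb
    rw [hv] at h3
    obtain ⟨d, hd, hd'⟩ : ∃ d, (d = 1 ∨ d = z) ∧ w * w' = w' * w * d := by
      rcases e.bracket w w' with h | h
      · exact ⟨1, Or.inl rfl, by rw [mul_one, h]⟩
      · exact ⟨z, Or.inr rfl, h⟩
    obtain ⟨f, hf, hf'⟩ : ∃ f, (f = 1 ∨ f = a) ∧ twistFun a w' = w' * f := by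
      unfold twistFun
      split
      · exact ⟨1, Or.inl rfl, by rw [mul_one]⟩
      · exact ⟨a, Or.inr rfl, rfl⟩
    rw [hf', ← mul_assoc, hd', ← mul_assoc w' w b, mul_assoc (w' * w) d f, mul_assoc (w' * w) b c] at h3
    have h4 : d * f = b * c := mul_left_cancel h3
    have hcc : c * c = 1 := by rcases hc with h | h <;> simp [h, e.sq]
    have h5 : b = d * f * c := by rw [h4, mul_assoc, hcc, mul_one]
    rcases hf with hfe | hfe <;> rw [hfe] at h5
    · rw [mul_one] at h5
      exact hnotZ b hb (h5 ▸ hmulZ d c hd hc)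
    · refine hba (d * c) (hmulZ d c hd hc) ?_
      rw [h5, ← hzz d hd a, mul_assoc]
  -- the third vector
  have hb₃sq : (a * b₁ * b₂) * (a * b₁ * b₂) = z := by
    have hc : Commute a (b₁ * b₂) := Commute.mul_right h1 h2
    have hc12 : Commute b₁ b₂ := h12
    rw [mul_assoc a b₁ b₂, hc.symm.mul_mul_mul_comm, ha, hc12.symm.mul_mul_mul_comm, hb₁, hb₂, e.sq,
      mul_one]
  have hb₃a : a * (a * b₁ * b₂) = (a * b₁ * b₂) * a := by
    rw [mul_assoc (a * b₁), ← h2, ← mul_assoc (a * b₁), mul_assoc a b₁ a, ← h1]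
    simp [mul_assoc]
  have k1 := hwb b₁ hb₁ h1 hb₁a
  have k2 := hwb b₂ hb₂ h2 hb₂a
  have k3 := hwb _ hb₃sq hb₃a (fun c hc h => hb₃ c hc (mul_left_cancel ((mul_assoc a b₁ b₂).symm.trans h)))
  apply hwa
  have h5 : w * a * (b₁ * b₂) = a * w * (b₁ * b₂) := by
    rw [mul_assoc a w, ← mul_assoc w b₁ b₂, k1, mul_assoc b₁ w b₂, k2, ← mul_assoc b₁, ← mul_assoc a,
      mul_assoc w a, ← mul_assoc a b₁ b₂]
    exact k3
  exact mul_right_cancel h5

theorem exists_data [Finite Q] (h : Cfsg.IsExtraspecial 2 Q) : ∃ z : Q, Data z := by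
  haveI : Fact (Nat.Prime 2) := ⟨Nat.prime_two⟩
  obtain ⟨u, hu, huniv⟩ := Nat.card_eq_two_iff.mp h.2
  obtain ⟨z, hz, hcen⟩ : ∃ z ∈ Subgroup.center Q, z ≠ 1 ∧ ∀ c ∈ Subgroup.center Q, c = 1 ∨ c = z := by
    obtain ⟨y, hy⟩ := (Subgroup.ne_bot_iff_exists_ne_one).mp (Extraspecial.center_ne_bot h)
    refine ⟨y, y.2, fun h1 => hy (Subtype.ext h1), fun c hc => ?_⟩
    have : ∀ v w x : Subgroup.center Q, v = w ∨ v = x ∨ w = x := by
      intro v w x
      have hv := Set.eq_univ_iff_forall.mp huniv.2 v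
      have hw := Set.eq_univ_iff_forall.mp huniv.2 w
      have hx := Set.eq_univ_iff_forall.mp huniv.2 x
      simp only [Set.mem_insert_iff, Set.mem_singleton_iff] at hv hw hx
      grind
    rcases this ⟨c, hc⟩ 1 y with h | h | h
    · exact Or.inl (congrArg Subtype.val h)
    · exact Or.inr (congrArg Subtype.val h)
    · exact absurd h.symm hy
  obtain ⟨hz1, hcen⟩ := hcen
  have hzz : z * z = 1 := by
    rcases hcen (z * z) (mul_mem hz hz) with h | h
    · exact h
    · exact absurd (mul_left_cancel (h.trans (mul_one z).symm)) hz1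
  refine ⟨z, hz1, hzz, fun x => Subgroup.mem_center_iff.mp hz x, fun c hc => hcen c (Subgroup.mem_center_iff.mpr hc),
    fun x y => ?_, fun x => hcen _ (by rw [← pow_two]; exact Extraspecial.pow_mem_center h x)⟩
  rcases hcen _ (Extraspecial.commutator_mem_center h x y) with h' | h'
  · exact Or.inl (commutatorElement_eq_one_iff_commute.mp h')
  · refine Or.inr ?_
    rw [Subgroup.mem_center_iff.mp hz (y * x), ← h', commutatorElement_def]
    group

theorem exists_sq_eq (e : Data z) {H : Subgroup Q} {R : Subgroup Q} {a : Q} (ha : a * a = z)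
    (haR : a ∈ R) (hlt : ¬ H ≤ R) (hHa : a ∈ H) (hcomm : ∀ x ∈ H, x * a = a * x) :
    ∃ b ∈ H, b ∉ R ∧ b * b = z := by
  obtain ⟨x, hx, hxR⟩ := SetLike.not_le_iff_exists.mp hlt
  rcases e.square x with h | h
  · refine ⟨x * a, H.mul_mem hx hHa, fun hxa => hxR (by simpa using R.mul_mem hxa (R.inv_mem haR)), ?_⟩
    rw [(show Commute x a from hcomm x hx).symm.mul_mul_mul_comm, h, ha, one_mul]
  · exact ⟨x, hx, hxR, h⟩

theorem not_isComplement' [Finite Q] {n : ℕ} (hn : 3 ≤ n) (hQ : Cfsg.IsExtraspecial 2 Q)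
    (hcard : Nat.card Q = 2 ^ (2 * n + 1)) (L : Subgroup (MulAut Q)) :
    ¬ (Cfsg.Inn Q).IsComplement' L := by
  intro hL
  haveI : Fact (Nat.Prime 2) := ⟨Nat.prime_two⟩
  obtain ⟨z, e⟩ := exists_data hQ
  have hidx : ∀ x : Q, (Subgroup.centralizer ({x} : Set Q)).index ≤ 2 := fun x =>
    (index_centralizer_le (Z := Subgroup.center Q) fun g => Extraspecial.commutator_mem_center hQ g x).trans
      hQ.2.le
  obtain ⟨a, ha⟩ : ∃ a : Q, a * a = z := by
    by_contra hne
    push Not at hne
    apply Extraspecial.center_ne_top hQ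
    rw [Subgroup.eq_top_iff']
    intro x
    rw [Subgroup.mem_center_iff]
    intro y
    have h : ∀ u : Q, u⁻¹ = u := fun u => inv_eq_of_mul_eq_one_right ((e.square u).resolve_right (hne u))
    calc y * x = (y * x)⁻¹ := (h _).symm
      _ = x⁻¹ * y⁻¹ := mul_inv_rev y x
      _ = x * y := by rw [h, h]
  have hord : ∀ b : Q, Nat.card (Subgroup.zpowers b) ≤ 4 := fun b => by
    rw [Nat.card_zpowers]
    exact orderOf_le_of_pow_eq_one (by norm_num) (by simpa using Extraspecial.pow_sq_eq_one hQ b)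
  have hbig : ∀ H : Subgroup Q, H.index ≤ 4 → 16 < Nat.card H := by
    intro H hH
    have h1 := H.card_mul_index
    have h2 : 2 ^ 7 ≤ Nat.card Q := hcard ▸ Nat.pow_le_pow_right (by norm_num) (by omega)
    nlinarith
  set C₁ := Subgroup.centralizer ({a} : Set Q)
  have hC₁ : ∀ x ∈ C₁, x * a = a * x := fun x hx => Subgroup.mem_centralizer_singleton_iff.mp hx
  obtain ⟨b₁, hb₁C, hb₁R, hb₁⟩ := exists_sq_eq e (H := C₁) (R := Subgroup.zpowers a) ha
    (Subgroup.mem_zpowers a) (fun hle => by
      have := Subgroup.card_le_of_le hle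
      have := hbig C₁ ((hidx a).trans (by norm_num))
      have := hord a
      omega) (Subgroup.mem_centralizer_singleton_iff.mpr rfl) hC₁
  set C₂ := C₁ ⊓ Subgroup.centralizer ({b₁} : Set Q)
  let f : Subgroup.zpowers a × Subgroup.zpowers b₁ →* Q :=
    MonoidHom.noncommCoprod (Subgroup.zpowers a).subtype (Subgroup.zpowers b₁).subtype
      (fun ⟨x, hx⟩ ⟨y, hy⟩ => by
        obtain ⟨i, rfl⟩ := hx
        obtain ⟨j, rfl⟩ := hy
        exact (show Commute a b₁ from (hC₁ b₁ hb₁C).symm).zpow_zpow i j)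
  have haR : a ∈ f.range := ⟨(⟨a, Subgroup.mem_zpowers a⟩, 1), by simp [f]⟩
  have hb₁R' : b₁ ∈ f.range := ⟨(1, ⟨b₁, Subgroup.mem_zpowers b₁⟩), by simp [f]⟩
  have hcardR : Nat.card f.range ≤ 16 := by
    refine (Nat.le_of_dvd Nat.card_pos (Subgroup.card_range_dvd f)).trans ?_
    rw [Nat.card_prod]
    exact (Nat.mul_le_mul (hord a) (hord b₁)).trans (by norm_num)
  obtain ⟨b₂, hb₂C, hb₂R, hb₂⟩ := exists_sq_eq e (H := C₂) (R := f.range) ha haR (fun hle => by
      have := Subgroup.card_le_of_le hle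
      have := hbig C₂ (Subgroup.index_inf_le.trans
        ((Nat.mul_le_mul (hidx a) (hidx b₁)).trans (by norm_num)))
      omega)
    ⟨Subgroup.mem_centralizer_singleton_iff.mpr rfl,
      Subgroup.mem_centralizer_singleton_iff.mpr (hC₁ b₁ hb₁C).symm⟩
    (fun x hx => hC₁ x hx.1)
  have hzR : ∀ R : Subgroup Q, a ∈ R → ∀ c, (c = 1 ∨ c = z) → c ∈ R := by
    rintro R haR c (rfl | rfl)
    · exact R.one_mem
    · exact ha ▸ R.mul_mem haR haR
  refine no_complement e L hL ha hb₁ hb₂ (hC₁ b₁ hb₁C).symm (hC₁ b₂ hb₂C.1).symm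
    (Subgroup.mem_centralizer_singleton_iff.mp hb₂C.2).symm (fun c hc h => hb₁R ?_)
    (fun c hc h => hb₂R ?_) (fun c hc h => hb₂R ?_)
  · exact h ▸ mul_mem (Subgroup.mem_zpowers a) (hzR _ (Subgroup.mem_zpowers a) c hc)
  · exact h ▸ mul_mem haR (hzR _ haR c hc)
  · have h' : b₂ = b₁⁻¹ * c := by rw [← h, inv_mul_cancel_left]
    exact h' ▸ mul_mem (inv_mem hb₁R') (hzR _ haR c hc)

end CfsgLib.ExtraAut
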